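/-
Projective representations of simple presented groups: if the relators of a simple presented group `Q` are sent
into a central subgroup `Z` lying in the group generated by the images, then the group generated has centre `Z`
and central quotient `Q` (helper16).
-/
import Cfsg.Agent.Lib.ToddCox.OpMap
import Cfsg.Agent.Lib.ToddCox.DCover

set_option autoImplicit false

namespace Cfsg.Agent.Lib.ToddCox

open scoped commutatorElement

theorem noncomm_of_simple {Q : Type*} [Group Q] (hs : IsSimpleGroup Q) (hc : ¬ (Nat.card Q).Prime) :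
    ∃ x y : Q, x * y ≠ y * x := by
  by_contra hcon
  push Not at hcon
  apply hc
  letI : CommGroup Q := { (inferInstance : Group Q) with mul_comm := hcon }
  exact Group.is_simple_iff_prime_card.mp hs

section
variable {α : Type} {Γ : Type*} [Group Γ]

theorem mem_closure_of_lift (T : α → Γ) (r : FreeGroup α) :
    FreeGroup.lift T r ∈ Subgroup.closure (Set.range T) := by
  rw [← FreeGroup.range_lift_eq_closure]
  exact ⟨r, rfl⟩

theorem cent_quot [DecidableEq α] (edges : List (α × ℕ × α)) (extra : List (FreeGroup α))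
    (hs : IsSimpleGroup (PresentedGroup (Spor.coxRelators edges ∪ {r | r ∈ extra})))
    (hna : ∃ x y : PresentedGroup (Spor.coxRelators edges ∪ {r | r ∈ extra}), x * y ≠ y * x)
    (T : α → Γ) (Z : Subgroup Γ)
    (hZc : ∀ z ∈ Z, ∀ a, T a * z = z * T a)
    (hZle : Z ≤ Subgroup.closure (Set.range T))
    (hrel : ∀ r ∈ coxList edges ++ extra, FreeGroup.lift T r ∈ Z)
    (a0 : α) (ha0 : T a0 ∉ Z) :
    Nat.card (Subgroup.center (Subgroup.closure (Set.range T))) = Nat.card Z ∧
    Nonempty (Subgroup.closure (Set.range T) ⧸ Subgroup.center (Subgroup.closure (Set.range T)) ≃*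
      PresentedGroup (Spor.coxRelators edges ∪ {r | r ∈ extra})) := by
  set H : Subgroup Γ := Subgroup.closure (Set.range T) with hH
  let Z' : Subgroup H := Z.subgroupOf H
  have hZ'c : Z' ≤ Subgroup.center H := by
    intro z hz
    rw [Subgroup.mem_center_iff]
    intro g
    have hz' : (z : Γ) ∈ Z := hz
    have hall : ∀ x ∈ Subgroup.closure (Set.range T), x * (z : Γ) = z * x := by
      intro x hx
      induction hx using Subgroup.closure_induction with
      | mem x hx =>
        obtain ⟨a, rfl⟩ := hx
        exact hZc _ hz' a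
      | one => simp
      | mul x y _ _ ihx ihy => rw [mul_assoc, ihy, ← mul_assoc, ihx, mul_assoc]
      | inv x _ ihx =>
        rw [inv_mul_eq_iff_eq_mul, ← mul_assoc, ihx, mul_assoc, mul_inv_cancel, mul_one]
    exact Subtype.ext (hall g g.2)
  have hZ'n : Z'.Normal := by
    constructor
    intro n hn g
    have := Subgroup.mem_center_iff.mp (hZ'c hn) g
    rw [this, mul_inv_cancel_right]
    exact hn
  let T' : α → H := fun a => ⟨T a, Subgroup.subset_closure ⟨a, rfl⟩⟩
  have hT' : ∀ r : FreeGroup α, ((FreeGroup.lift T' r : H) : Γ) = FreeGroup.lift T r := by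
    intro r
    have : H.subtype.comp (FreeGroup.lift T') = FreeGroup.lift T := by
      ext a
      simp [T']
    exact DFunLike.congr_fun this r
  let f : α → H ⧸ Z' := fun a => QuotientGroup.mk' Z' (T' a)
  have hf : ∀ r ∈ coxList edges ++ extra, FreeGroup.lift f r = 1 := by
    intro r hr
    have h1 : FreeGroup.lift f = (QuotientGroup.mk' Z').comp (FreeGroup.lift T') := by
      ext a
      simp [f]
    rw [h1]
    show QuotientGroup.mk' Z' (FreeGroup.lift T' r) = 1
    rw [QuotientGroup.mk'_apply, QuotientGroup.eq_one_iff]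
    show ((FreeGroup.lift T' r : H) : Γ) ∈ Z
    rw [hT']
    exact hrel r hr
  let φ := presMap edges extra f hf
  have hinj : Function.Injective φ := by
    apply injective_of_simple hs φ (q := PresentedGroup.of a0)
    show presMap edges extra f hf (PresentedGroup.of a0) ≠ 1
    rw [presMap_of]
    intro h
    apply ha0
    have h2 : T' a0 ∈ Z' := (QuotientGroup.eq_one_iff _).mp h
    exact h2
  have hsurj : Function.Surjective φ := by
    intro y
    obtain ⟨h, rfl⟩ := QuotientGroup.mk'_surjective Z' y
    obtain ⟨g, hg⟩ := h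
    have hg' : g ∈ Subgroup.closure (Set.range T) := hg
    suffices hmem : ∀ g (hg : g ∈ Subgroup.closure (Set.range T)),
        QuotientGroup.mk' Z' (⟨g, hg⟩ : H) ∈ φ.range from hmem g hg'
    intro g hg
    induction hg using Subgroup.closure_induction with
    | mem x hx =>
      obtain ⟨a, rfl⟩ := hx
      refine ⟨PresentedGroup.of a, ?_⟩
      show presMap edges extra f hf (PresentedGroup.of a) = _
      rw [presMap_of]
    | one => exact φ.range.one_mem
    | mul x y hx hy ihx ihy =>
      have := φ.range.mul_mem ihx ihy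
      rwa [← map_mul] at this
    | inv x hx ihx =>
      have := φ.range.inv_mem ihx
      rwa [← map_inv] at this
  let e : PresentedGroup (Spor.coxRelators edges ∪ {r | r ∈ extra}) ≃* H ⧸ Z' :=
    MulEquiv.ofBijective φ ⟨hinj, hsurj⟩
  have hc : Subgroup.center H = Z' := center_eq_of_simple_quot hs hna hZ'c e.symm
  refine ⟨?_, ⟨(QuotientGroup.quotientMulEquivOfEq hc).trans e.symm⟩⟩
  rw [hc]
  exact Nat.card_congr (Subgroup.subgroupOfEquivOfLe hZle).toEquiv

/-- The group generated by conjugate involutions, with a relation of odd length among them, is perfect. -/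
theorem perfect_closure (T : α → Γ) (hsq : ∀ a, T a * T a = 1) (a0 : α) (par : α → α) (dep : α → ℕ)
    (hpar : ∀ a, a = a0 ∨ ((T a * T (par a)) ^ 3 = 1 ∧ dep (par a) < dep a))
    (L : List α) (hodd : Odd L.length) (hL : (L.map T).prod = 1) :
    commutator (Subgroup.closure (Set.range T)) = ⊤ := by
  set H : Subgroup Γ := Subgroup.closure (Set.range T) with hH
  let T' : α → H := fun a => ⟨T a, Subgroup.subset_closure ⟨a, rfl⟩⟩
  let π : H →* Abelianization H := Abelianization.of
  have hsq' : ∀ a, π (T' a) * π (T' a) = 1 := by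
    intro a
    rw [← map_mul, show T' a * T' a = 1 from Subtype.ext (hsq a), map_one]
  have h3 : ∀ a b, (T a * T b) ^ 3 = 1 → π (T' a) = π (T' b) := by
    intro a b hab
    have h1 : (π (T' a) * π (T' b)) ^ 3 = 1 := by
      rw [← map_mul, ← map_pow, show (T' a * T' b) ^ 3 = 1 from Subtype.ext hab, map_one]
    have hb2 : π (T' b) = (π (T' b))⁻¹ := eq_inv_of_mul_eq_one_left (hsq' b)
    have e1 : (π (T' a)) ^ 3 = π (T' a) := by rw [pow_succ, pow_two, hsq' a, one_mul]
    have e2 : (π (T' b)) ^ 3 = π (T' b) := by rw [pow_succ, pow_two, hsq' b, one_mul]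
    rw [mul_pow, e1, e2] at h1
    rw [hb2]
    exact eq_inv_of_mul_eq_one_left h1
  have hall : ∀ n a, dep a = n → π (T' a) = π (T' a0) := by
    intro n
    induction n using Nat.strong_induction_on with
    | _ n ih =>
      intro a ha
      rcases hpar a with rfl | ⟨h1, h2⟩
      · rfl
      · rw [h3 a (par a) h1]
        exact ih (dep (par a)) (by omega) (par a) rfl
  have hall' : ∀ a, π (T' a) = π (T' a0) := fun a => hall _ a rfl
  have hprod : ∀ L : List α, π ⟨(L.map T).prod, Subgroup.list_prod_mem _ (by
      intro g hg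
      obtain ⟨a, _, rfl⟩ := List.mem_map.mp hg
      exact Subgroup.subset_closure ⟨a, rfl⟩)⟩ = π (T' a0) ^ L.length := by
    intro L
    induction L with
    | nil =>
      simp only [List.map_nil, List.prod_nil, List.length_nil, pow_zero]
      exact map_one π
    | cons a L ih =>
      simp only [List.map_cons, List.prod_cons, List.length_cons]
      have e : (⟨T a * (L.map T).prod, Subgroup.mul_mem _ (T' a).2 (Subgroup.list_prod_mem _ (by
          intro g hg
          obtain ⟨a, _, rfl⟩ := List.mem_map.mp hg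
          exact Subgroup.subset_closure ⟨a, rfl⟩))⟩ : H) = T' a * ⟨(L.map T).prod, Subgroup.list_prod_mem _ (by
          intro g hg
          obtain ⟨a, _, rfl⟩ := List.mem_map.mp hg
          exact Subgroup.subset_closure ⟨a, rfl⟩)⟩ := rfl
      rw [e, map_mul, ih, hall' a, pow_succ, mul_comm]
  have hx : π (T' a0) = 1 := by
    have h1 := hprod L
    have h2 : (⟨(L.map T).prod, Subgroup.list_prod_mem _ (by
      intro g hg
      obtain ⟨a, _, rfl⟩ := List.mem_map.mp hg
      exact Subgroup.subset_closure ⟨a, rfl⟩)⟩ : H) = 1 := Subtype.ext hL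
    rw [h2, map_one] at h1
    obtain ⟨k, hk⟩ := hodd
    rw [hk, pow_succ, pow_mul, pow_two, hsq' a0, one_pow, one_mul] at h1
    exact h1.symm
  rw [eq_top_iff]
  rintro ⟨g, hg⟩ _
  have key : ∀ g (hg : g ∈ Subgroup.closure (Set.range T)), π ⟨g, hg⟩ = 1 := by
    intro g hg
    induction hg using Subgroup.closure_induction with
    | mem x hx' =>
      obtain ⟨a, rfl⟩ := hx'
      show π (T' a) = 1
      rw [hall' a, hx]
    | one => exact map_one π
    | mul x y hx' hy' ihx ihy =>
      have : (⟨x * y, Subgroup.mul_mem _ hx' hy'⟩ : H) = ⟨x, hx'⟩ * ⟨y, hy'⟩ := rfl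
      rw [this, map_mul, ihx, ihy, one_mul]
    | inv x hx' ihx =>
      have : (⟨x⁻¹, Subgroup.inv_mem _ hx'⟩ : H) = (⟨x, hx'⟩ : H)⁻¹ := rfl
      rw [this, map_inv, ihx, inv_one]
  exact (QuotientGroup.eq_one_iff _).mp (key g hg)

end

/-- In a perfect group with non-trivial centre, the centre has no complement. -/
theorem no_complement_of_perfect {H : Type*} [Group H] (hperf : commutator H = ⊤)
    (hc : Nat.card (Subgroup.center H) ≠ 1) : ∀ L : Subgroup H, ¬ (Subgroup.center H).IsComplement' L := by
  intro L hL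
  have hcomm : commutator H ≤ L := by
    unfold commutator
    rw [Subgroup.commutator_le]
    intro g₁ _ g₂ _
    obtain ⟨⟨c₁, l₁⟩, h₁⟩ := hL.2 g₁
    obtain ⟨⟨c₂, l₂⟩, h₂⟩ := hL.2 g₂
    have h₁' : (c₁ : H) * (l₁ : H) = g₁ := h₁
    have h₂' : (c₂ : H) * (l₂ : H) = g₂ := h₂
    have hc₁ := Subgroup.mem_center_iff.mp c₁.2
    have hc₂ := Subgroup.mem_center_iff.mp c₂.2
    rw [← h₁', ← h₂', comm_central_left hc₁, comm_central_right hc₂]
    simp only [commutatorElement_def]
    exact L.mul_mem (L.mul_mem (L.mul_mem l₁.2 l₂.2) (L.inv_mem l₁.2)) (L.inv_mem l₂.2)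
  have hdis := hL.disjoint
  apply hc
  have hb : Subgroup.center H = ⊥ := by
    rw [eq_bot_iff]
    intro x hx
    have hxL : x ∈ L := hcomm (by rw [hperf]; trivial)
    exact (Subgroup.mem_bot).mpr ((Subgroup.disjoint_def.mp hdis) hx hxL)
  rw [hb]
  simp

end Cfsg.Agent.Lib.ToddCox
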