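/-
Carmichael's presentation of the alternating group of degree 4 (helper16).
-/
import Cfsg.Prelude.Def_SporCoxeter

set_option autoImplicit false

namespace Cfsg.Agent.Lib.ToddCox.OPA4

inductive Gen
  | g
  | a
  deriving DecidableEq

abbrev g : FreeGroup Gen := FreeGroup.of Gen.g
abbrev a : FreeGroup Gen := FreeGroup.of Gen.a

def edges : List (Gen × ℕ × Gen) := []

def extra : List (FreeGroup Gen) := [
  g * g * g,
  a * a,
  g * a * g * a * g * a ]

end Cfsg.Agent.Lib.ToddCox.OPA4
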