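/-
Carmichael's presentation of the alternating group of degree 5 (helper16).
-/
import Cfsg.Prelude.Def_SporCoxeter

set_option autoImplicit false

namespace Cfsg.Agent.Lib.ToddCox.OPA5

inductive Gen
  | g
  | a
  | b
  deriving DecidableEq

abbrev g : FreeGroup Gen := FreeGroup.of Gen.g
abbrev a : FreeGroup Gen := FreeGroup.of Gen.a
abbrev b : FreeGroup Gen := FreeGroup.of Gen.b

def edges : List (Gen × ℕ × Gen) := []

def extra : List (FreeGroup Gen) := [
  g * g * g,
  a * a,
  b * b,
  g * a * g * a * g * a,
  g * b * g * b,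
  a * b * a * b * a * b ]

end Cfsg.Agent.Lib.ToddCox.OPA5
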