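/-
A faithful transitive action as a permutation group (helper16).
-/
import Cfsg.Agent.Lib.ToddCox.OpMap

set_option autoImplicit false

namespace Cfsg.Agent.Lib.ToddCox

section
variable {Q : Type*} [Group Q] {n : ℕ} [NeZero n] (ρ : Q →* Equiv.Perm (Fin n))

theorem range_pretransitive (htrans : ∀ i : Fin n, ∃ g, ρ g 0 = i) : MulAction.IsPretransitive ρ.range (Fin n) := by
  refine ⟨fun i j => ?_⟩
  obtain ⟨g1, h1⟩ := htrans i
  obtain ⟨g2, h2⟩ := htrans j
  refine ⟨⟨ρ (g2 * g1⁻¹), _, rfl⟩, ?_⟩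
  show ρ (g2 * g1⁻¹) i = j
  have h3 : (ρ g1)⁻¹ (ρ g1 0) = 0 := by rw [Equiv.Perm.inv_eq_iff_eq]
  rw [map_mul, map_inv, Equiv.Perm.mul_apply, ← h1, h3, h2]

theorem card_stabilizer_mul (hinj : Function.Injective ρ) (htrans : ∀ i : Fin n, ∃ g, ρ g 0 = i) :
    Nat.card (MulAction.stabilizer ρ.range (0 : Fin n)) * n = Nat.card Q := by
  have hpre := range_pretransitive ρ htrans
  have h1 := Subgroup.card_mul_index (MulAction.stabilizer ρ.range (0 : Fin n))
  rw [MulAction.index_stabilizer] at h1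
  have h2 : MulAction.orbit ρ.range (0 : Fin n) = Set.univ := MulAction.orbit_eq_univ _ _
  rw [h2, Set.ncard_univ, Nat.card_fin] at h1
  rw [h1]
  exact Nat.card_congr (MonoidHom.ofInjective hinj).symm.toEquiv

end

/-- A simple group with a faithful action: the image is simple of the same order. -/
theorem simple_range_of_inj {Q Γ : Type*} [Group Q] [Group Γ] (hs : IsSimpleGroup Q) (φ : Q →* Γ)
    (hinj : Function.Injective φ) : IsSimpleGroup φ.range ∧ Nat.card φ.range = Nat.card Q := by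
  let e : Q ≃* φ.range := MonoidHom.ofInjective hinj
  exact ⟨e.symm.isSimpleGroup, (Nat.card_congr e.toEquiv).symm⟩

end Cfsg.Agent.Lib.ToddCox
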